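import Cfsg.Agent.Lib.BG.Quo
import Cfsg.Agent.Lib.BG.T01_Coprime
import Cfsg.Agent.Lib.BG.T01_Cyclic
import Cfsg.Agent.Lib.PGroup.Critical
import Cfsg.Agent.Lib.Transfer.Alperin
import Cfsg.Agent.Lib.Transfer.Tate
import Cfsg.Agent.Lib.Solv.Huppert

/-! # Groups in which all `p`-subgroups of a fixed order are strongly closed -/

set_option autoImplicit false
set_option linter.unusedSectionVars false

namespace Cfsg.Lib.Comp

open Subgroup Cfsg.Lib.BG Cfsg.Lib.Core
open scoped Cfsg.Lib.Transfer commutatorElement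

variable {G : Type*} [Group G] [Finite G] {p k : ℕ} [hp : Fact p.Prime]
  {F K L P R T U X : Subgroup G} {x : G}

/-- `x` acts trivially on the `L`-invariant sections of order `p`. -/
def TrivSec (p : ℕ) (L : Subgroup G) (x : G) : Prop :=
  x ∈ L ∧ (orderOf x).Coprime p ∧ ∀ A B : Subgroup G, Nml A B → A.relIndex B = p → L ≤ 𝐍(A) →
    L ≤ 𝐍(B) → ⁅B, zpowers x⁆ ≤ A

theorem le_Phi_of_max (hU : IsPGroup p U) (hX : X ≤ U)
    (h : ∀ M ≤ U, Nat.card U = p * Nat.card M → X ≤ M) : X ≤ 𝚽(U) := by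
  rw [← subOf_map hX]
  refine map_mono (PGroup.le_frattini_iff.2 fun M hM y hy => ?_)
  refine (mem_map_iff_mem U.subtype_injective).1 (h _ (map_subtype_le M) ?_ hy)
  rw [card_map_of_injective U.subtype_injective, ← PGroup.index_eq_of_isCoatom hU hM,
    index_mul_card]

namespace TrivSec

theorem zp_le (h : TrivSec p L x) : zpowers x ≤ L := zpowers_le.2 h.1

theorem cop (h : TrivSec p L x) : (Nat.card (zpowers x)).Coprime p := by
  rw [Nat.card_zpowers]; exact h.2.1

theorem cent_cyclic (h : TrivSec p L x) (hR : IsPGroup p R) (hc : IsCyclic R) (hn : L ≤ 𝐍(R)) :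
    zpowers x ≤ 𝐂(R) := by
  refine (coprime_act_cyclic_pgroup hc hR (h.zp_le.trans hn) h.cop).elim id fun h1 => ?_
  by_cases h0 : R = ⊥
  · rw [h0]; exact fun _ _ _ hy => by rw [mem_bot.1 hy, one_mul, mul_one]
  have h2 := PGroup.elemAb_card_le_of_isCyclic
    (PGroup.isElementaryAbelian_omegaOne (p := p) hc.isMulCommutative)
    (Subgroup.isCyclic_of_le (PGroup.omegaOne_le R))
  have h3 := pgroup_dvd_card (pgroup_of_le hR (PGroup.omegaOne_le (p := p) R))
    (PGroup.omegaOne_ne_bot hR h0)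
  have h4 := h.2.2 ⊥ (omegaOne p R) ⟨bot_le, le_normalizer_of_normal⟩
    (by rw [relIndex_bot_left]; exact le_antisymm h2 (Nat.le_of_dvd Nat.card_pos h3))
    le_normalizer_of_normal (norm_Ohm1 hn p)
  exact absurd (eq_bot_iff.2 (h1.1 ▸ le_inf (PGroup.omegaOne_le R)
    (commutator_eq_bot_iff_le_centralizer.1 (le_bot_iff.1 h4)))) (PGroup.omegaOne_ne_bot hR h0)

theorem comm_le_Phi (h : TrivSec p L x) (hU : IsPGroup p U) (hT : T ≤ U) (hn : L ≤ 𝐍(T))
    (hM : ∀ M ≤ U, Nat.card U = p * Nat.card M → L ≤ 𝐍(M ⊓ T)) : ⁅T, zpowers x⁆ ≤ 𝚽(U) := by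
  have h1 : ⁅T, zpowers x⁆ ≤ T := comm_le_left (h.zp_le.trans hn)
  refine le_Phi_of_max hU (h1.trans hT) fun M hMU hc => ?_
  have h2 := PGroup.le_normalizer_of_card_eq_mul hU hMU hc
  have h3 : M.relIndex U = p := by
    have := BG.card_mul_relIndex hMU
    rw [hc, mul_comm p] at this
    exact Nat.eq_of_mul_eq_mul_left Nat.card_pos this
  rcases (Nat.dvd_prime hp.out).1 (h3 ▸ relIndex_dvd_of_norm hT h2) with h4 | h4
  · exact h1.trans (relIndex_eq_one.1 h4)
  · exact (h.2.2 (M ⊓ T) T ⟨inf_le_right, norm_inf (hT.trans h2) le_normalizer⟩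
      (by rwa [inf_relIndex_right]) (hM M hMU hc) hn).trans inf_le_left

theorem cent_of_all (h : TrivSec p L x) (hT : IsPGroup p T) (hk : 1 ≤ k) (hlt : p ^ k < Nat.card T)
    (hn : L ≤ 𝐍(T)) (hall : ∀ R ≤ T, (Nat.card R = p ^ k ∨ (p ^ k = 2 ∧ Nat.card R = 4)) →
      L ≤ 𝐍(R)) : zpowers x ≤ 𝐂(T) := by
  have key : ∀ R ≤ T, Nat.card R = p ^ k → zpowers x ≤ 𝐂(R) := by
    intro R hRT hR
    by_cases hc : IsCyclic R
    · exact h.cent_cyclic (pgroup_of_le hT hRT) hc (hall R hRT (Or.inl hR))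
    obtain ⟨U, h1, h2, -, h3⟩ := PGroup.exists_card_eq_mul_of_lt hT
      (lt_of_le_of_ne hRT fun e => hlt.ne (by rw [← hR, e]))
    have hU := pgroup_of_le hT h2
    have hM : ∀ M ≤ U, Nat.card U = p * Nat.card M → L ≤ 𝐍(M) := fun M hM hc =>
      hall M (hM.trans h2) (Or.inl (by
        rw [← hR]; exact Nat.eq_of_mul_eq_mul_left hp.out.pos (hc.symm.trans h3)))
    have hUn : L ≤ 𝐍(U) := by
      obtain ⟨A, B, hne, hA, hB⟩ := PGroup.exists_two_index_eq_of_not_isCyclic hU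
        fun hc' => hc (Subgroup.isCyclic_of_le h1)
      have e : ∀ A : Subgroup U, A.index = p → L ≤ 𝐍(A.map U.subtype) := fun A hA =>
        hM _ (map_subtype_le A) (by
          rw [card_map_of_injective U.subtype_injective, ← hA, index_mul_card])
      have : A.map U.subtype ⊔ B.map U.subtype = U := by
        rw [← Subgroup.map_sup, ((PGroup.isCoatom_iff_index_eq hU).2 hA).sup_eq_top_of_ne
          ((PGroup.isCoatom_iff_index_eq hU).2 hB) hne, ← MonoidHom.range_eq_map, range_subtype]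
      rw [← this]
      exact norm_sup (e A hA) (e B hB)
    exact (coprime_cent_Phi (h.zp_le.trans hUn) h.cop hU (h.comm_le_Phi hU le_rfl hUn
      fun M h4 h5 => norm_inf (hM M h4 h5) hUn)).trans (centralizer_le h1)
  have key2 : ∀ u ∈ T, orderOf u ≤ p ^ k → u ∈ 𝐂(zpowers x) := by
    intro u hu ho
    obtain ⟨R, h1, h2, h3⟩ := PGroup.exists_between_card_eq_pow hT (zpowers_le.2 hu)
      (by rwa [Nat.card_zpowers]) hlt.le
    exact le_centralizer_iff.1 (key R h2 h3) (h1 (mem_zpowers u))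
  have hpk : p ≤ p ^ k := Nat.le_self_pow (by omega) p
  by_cases hp2 : p = 2
  · subst hp2
    refine PGroup.le_centralizer_of_fixes_order_four hT (h.zp_le.trans hn) h.cop fun u hu h4 => ?_
    have h5 := Nat.le_of_dvd (by norm_num) (orderOf_dvd_of_pow_eq_one h4)
    by_cases h6 : orderOf u ≤ 2 ^ k
    · exact key2 u hu h6
    have h7 : k = 1 := by
      by_contra hk1
      have := Nat.pow_le_pow_right (n := 2) (by norm_num) (show 2 ≤ k by omega)
      omega
    subst h7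
    have h8 : orderOf u = 4 := by
      have := orderOf_dvd_of_pow_eq_one h4
      interval_cases orderOf u <;> simp_all
    exact le_centralizer_iff.1 (h.cent_cyclic (pgroup_of_le hT (zpowers_le.2 hu)) inferInstance
      (hall _ (zpowers_le.2 hu) (Or.inr ⟨rfl, by rw [Nat.card_zpowers, h8]⟩))) (mem_zpowers u)
  · refine coprime_odd_cent_Ohm1 hp2 (h.zp_le.trans hn) h.cop hT (le_centralizer_iff.1
      (PGroup.omegaOne_le_iff.2 fun u hu h1 => key2 u hu ?_))
    exact (Nat.le_of_dvd hp.out.pos (orderOf_dvd_of_pow_eq_one h1)).trans hpk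

end TrivSec

theorem pow_sub_one_mem_cent (hX : Nat.card X = p) (hx : x ∈ 𝐍(X)) : x ^ (p - 1) ∈ 𝐂(X) := by
  have : (X.subgroupOf 𝐍(X)).Normal := normal_in_normalizer
  have h := Solv.pow_sub_one_mem_centralizer hp.out (N := X.subgroupOf 𝐍(X))
    (by rw [subOf_card le_normalizer, hX]) ⟨x, hx⟩
  rw [subOf_cent le_normalizer] at h
  exact h

theorem trivSec_of_coprime (h1 : (orderOf x).Coprime p) (h2 : (orderOf x).Coprime (p - 1)) :
    TrivSec p (zpowers x) x := by
  refine ⟨mem_zpowers x, h1, fun A B hAB hi hA hB => ?_⟩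
  rw [commutator_comm, ← quo_le_cent_iff hA hAB.2]
  intro y hy
  refine Transfer.mem_of_pow_mem_of_coprime (pow_sub_one_mem_cent (by rw [card_quo hAB.2, hi])
    (quo_norm hB A hy)) (h2.coprime_dvd_left ?_)
  obtain ⟨z, hz, rfl⟩ := mem_quo.1 hy
  exact (orderOf_map_dvd _ z).trans (by rw [← orderOf_coe]; exact orderOf_dvd_of_mem_zpowers hz)

theorem trivSec_top (hx : x ∈ _root_.commutator G ⊔ closure {y | ∃ g : G, y = g ^ (p - 1)})
    (h1 : (orderOf x).Coprime p) : TrivSec p ⊤ x := by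
  refine ⟨mem_top x, h1, fun A B hAB hi hA hB => ?_⟩
  rw [commutator_comm, ← quo_le_cent_iff (le_top.trans hA) hAB.2]
  have hc : Nat.card (quo B A) = p := by rw [card_quo hAB.2, hi]
  refine (quo_mono (zpowers_le.2 hx) A).trans ?_
  rw [quo_sup (le_top.trans hA) (le_top.trans hA), _root_.commutator_def, quo_comm hA hA]
  refine sup_le (der1_cent_cyclic (isCyclic_of_prime_card hc) (quo_norm hB A)) ?_
  rw [← le_copre_iff (le_top.trans hA), closure_le]
  rintro _ ⟨g, rfl⟩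
  refine mem_copre.2 ⟨hA (mem_top _), ?_⟩
  have := pow_sub_one_mem_cent hc (quo_norm hB A (mem_quo.2 ⟨⟨g, hA (mem_top g)⟩, mem_top g, rfl⟩))
  rwa [← map_pow] at this

/-- A `p`-subgroup `F` with `F ^ g ∩ N(F) ≤ F` is strongly closed in any `p`-overgroup. -/
theorem isStronglyClosed_of_hsub (hP : IsPGroup p P) (hF : F ≤ P)
    (h : ∀ g : G, g ⋆ F ⊓ 𝐍(F) ≤ F) : IsStronglyClosed F P := by
  have h1 : P ≤ 𝐍(F) := by
    by_contra hn
    obtain ⟨g, hg, hg1, -, hg2⟩ := PGroup.exists_mem_normalizer_of_lt hP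
      (lt_of_le_of_ne (inf_le_left : P ⊓ 𝐍(F) ≤ P) fun e => hn (e ▸ inf_le_right))
    refine hg1 ⟨hg, Transfer.mem_normalizer_of_conj_le (le_trans (le_inf le_rfl ?_) (h g))⟩
    refine le_trans ?_ ((conj_eq_of_norm hg2).le.trans inf_le_right)
    exact Transfer.conj_mono _ (le_inf hF le_normalizer)
  exact ⟨hF, fun y hy g hg => h g ⟨Transfer.conj_mem_conj.2 hy, h1 hg⟩⟩

/-- All subgroups of `P` of order `p ^ k` (and `4` if `p ^ k = 2`) are strongly closed. -/
def AllSC (p k : ℕ) (P : Subgroup G) : Prop :=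
  1 ≤ k ∧ p ^ k < Nat.card P ∧
    ∀ F ≤ P, (Nat.card F = p ^ k ∨ (p ^ k = 2 ∧ Nat.card F = 4)) → IsStronglyClosed F P

theorem exists_allSC (hP : IsPGroup p P) (h : ∃ D ≤ P, 1 < Nat.card D ∧ Nat.card D < Nat.card P ∧
    ∀ F ≤ P, (Nat.card F = Nat.card D ∨ (Nat.card D = 2 ∧ Nat.card F = 4)) →
      ∀ g : G, g ⋆ F ⊓ 𝐍(F) ≤ F) : ∃ k, AllSC p k P := by
  obtain ⟨D, h1, h2, h3, h4⟩ := h
  obtain ⟨k, hk⟩ := IsPGroup.iff_card.1 (pgroup_of_le hP h1)
  rw [hk] at h2 h3 h4
  exact ⟨k, Nat.pos_of_ne_zero (by rintro rfl; simp at h2), h3,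
    fun F hF hc => isStronglyClosed_of_hsub hP hF (h4 F hF hc)⟩

theorem AllSC.subgroupOf (h : AllSC p k P) (hP : P ≤ K) : AllSC p k (P.subgroupOf K) := by
  refine ⟨h.1, by rw [subOf_card hP]; exact h.2.1, fun F hF hc => ⟨hF, fun y hy g hg => ?_⟩⟩
  refine (mem_map_iff_mem K.subtype_injective).1 ((h.2.2 (F.map K.subtype)
    (map_le_iff_le_comap.2 hF) ?_).2 y (mem_map_of_mem _ hy) g hg)
  rwa [card_map_of_injective K.subtype_injective]

theorem norm_inf_of_sc (h : IsStronglyClosed F P) (hT : T ≤ P) (hL : L ≤ 𝐍(T)) :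
    L ≤ 𝐍(F ⊓ T) := le_norm_iff.2 fun a ha y hy =>
  ⟨h.2 y hy.1 a (hT (le_norm_iff.1 hL a ha y hy.2)), le_norm_iff.1 hL a ha y hy.2⟩

theorem comm_le_Phi_of_allSC (hP : IsPGroup p P) (h : IsCyclic P ∨ ∃ k, AllSC p k P) (hT : T ≤ P)
    (hx : TrivSec p L x) (hn : L ≤ 𝐍(T)) : ⁅T, zpowers x⁆ ≤ 𝚽(P) := by
  have hT' := pgroup_of_le hP hT
  have h0 : zpowers x ≤ 𝐂(T) → ⁅T, zpowers x⁆ ≤ 𝚽(P) := fun h => by
    rw [commutator_eq_bot_iff_le_centralizer.2 (le_centralizer_iff.1 h)]; exact bot_le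
  rcases h with h | ⟨k, h1, h2, h3⟩
  · exact h0 (hx.cent_cyclic hT' (Subgroup.isCyclic_of_le hT) hn)
  by_cases h4 : p ^ k < Nat.card T
  · refine h0 (hx.cent_of_all hT' h1 h4 hn fun R hR hc => ?_)
    rw [← inf_eq_left.2 hR]
    exact norm_inf_of_sc (h3 R (hR.trans hT) hc) hT hn
  obtain ⟨R, h5, h6, h7⟩ := PGroup.exists_between_card_eq_pow hP hT (not_lt.1 h4) h2.le
  obtain ⟨U, h8, h9, -, h10⟩ := PGroup.exists_card_eq_mul_of_lt hP
    (lt_of_le_of_ne h6 fun e => h2.ne (by rw [← h7, e]))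
  refine (hx.comm_le_Phi (pgroup_of_le hP h9) (h5.trans h8) hn fun M hM hc => ?_).trans
    (PGroup.map_subtype_frattini_mono hP h9)
  refine norm_inf_of_sc (h3 M (hM.trans h9) (Or.inl ?_)) hT hn
  rw [← h7]
  exact Nat.eq_of_mul_eq_mul_left hp.out.pos (hc.symm.trans h10)

theorem hasNormalPComplement_of_allSC (hmin : ∀ q : ℕ, q.Prime → q ∣ Nat.card G → p ≤ q)
    (P : Sylow p G) (h : IsCyclic (P : Subgroup G) ∨ ∃ k, AllSC p k (P : Subgroup G)) :
    HasNormalPComplement p G := by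
  refine Transfer.hasNormalPComplement_of_commutator_inf_le_frattini P
    (Transfer.commutator_inf_sylow_le_of_local P fun T hT _ hi => ?_)
  let S : Subgroup G :=
    { carrier := {x | x ∈ 𝐍(T) ∧ ∀ t ∈ T, t⁻¹ * (x * t * x⁻¹) ∈ 𝚽((P : Subgroup G))}
      one_mem' := ⟨one_mem _, fun t _ => by simp⟩
      mul_mem' := fun {a b} ha hb => ⟨mul_mem ha.1 hb.1, fun t ht => by
        have := mul_mem (hb.2 t ht) (ha.2 _ ((hb.1 t).1 ht))
        convert this using 1
        group⟩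
      inv_mem' := fun {a} ha => ⟨inv_mem ha.1, fun t ht => by
        have := inv_mem (ha.2 _ ((inv_mem ha.1 t).1 ht))
        convert this using 1
        group⟩ }
  have hS : ∀ a ∈ 𝐍(T), ⁅T, zpowers a⁆ ≤ 𝚽((P : Subgroup G)) → a ∈ S := fun a ha h1 =>
    ⟨ha, fun t ht => by
      have := h1 (commutator_mem_commutator (inv_mem ht) (mem_zpowers a))
      rwa [commutatorElement_def, inv_inv, mul_assoc, mul_assoc, ← mul_assoc a] at this⟩
  have h1 := congrArg (map 𝐍(T).subtype) (Transfer.pResidual_sup_eq_top (p := p)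
    (H := ((P : Subgroup G) ⊓ 𝐍(T)).subgroupOf 𝐍(T)) hi)
  rw [Subgroup.map_sup, subOf_map inf_le_right, ← MonoidHom.range_eq_map, range_subtype] at h1
  have h2 : 𝐍(T) ≤ S := by
    refine h1.ge.trans (sup_le (Transfer.map_subtype_pResidual_le_iff.2 fun a ha ho => ?_)
      fun a ha => hS a ha.2 ?_)
    · refine hS a ha (comm_le_Phi_of_allSC P.isPGroup' h hT (trivSec_of_coprime ho ?_)
        (zpowers_le.2 ha))
      refine Nat.coprime_of_dvd fun q hq h3 h4 => ?_
      have := hmin q hq (h3.trans (orderOf_dvd_natCard a))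
      have := Nat.le_of_dvd (Nat.sub_pos_of_lt hp.out.one_lt) h4
      have := hp.out.pos
      omega
    · exact (commutator_mono hT (zpowers_le.2 ha.1)).trans
        (PGroup.commutator_le_map_subtype_frattini P.isPGroup')
  exact fun a ha => (h2 ha).2

theorem sChain_of_cent [P.Normal] [K.Normal] (hP : IsPGroup p P) (hc : _root_.commutator G ≤ K)
    (he : ∀ g : G, g ^ (p - 1) ∈ K) (h : ∀ x ∈ K, (orderOf x).Coprime p → x ∈ 𝐂(P)) :
    Solv.SChain P := by
  refine Solv.sChain_of_chief inferInstance fun U W hUW hU => ?_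
  have := hUW.2.2.1
  have hN := isMinNormal_map_mk'_of_isChiefFactor hUW
  have hNp := (pgroup_of_le hP hU).map (QuotientGroup.mk' W)
  have : (K.map (QuotientGroup.mk' W)).Normal :=
    (inferInstance : K.Normal).map _ (QuotientGroup.mk'_surjective W)
  obtain ⟨S, hS⟩ := Syl.exists p K
  have h1 := congrArg (map K.subtype) (Transfer.pResidual_sup_eq_top (p := p)
    (H := S.subgroupOf K) (Syl.iff.1 hS).2.2)
  rw [Subgroup.map_sup, subOf_map hS.le, ← MonoidHom.range_eq_map, range_subtype] at h1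
  have := hN.normal
  have h2 := PGroup.inf_centralizer_ne_bot hNp (hS.pi.pgroup.map (QuotientGroup.mk' W))
    le_normalizer_of_normal hN.ne_bot
  have h3 : U.map (QuotientGroup.mk' W) ≤ 𝐂(K.map (QuotientGroup.mk' W)) := by
    refine (hN.inf_eq_bot_or_le _).resolve_left
      fun e => h2 (eq_bot_iff.2 (e ▸ le_inf inf_le_left ?_))
    rw [← h1, Subgroup.map_sup, le_centralizer_iff]
    refine sup_le ?_ (le_centralizer_iff.1 inf_le_right)
    refine le_trans ?_ (centralizer_le (inf_le_left : _ ≤ U.map (QuotientGroup.mk' W)))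
    rw [map_le_cent_iff, commutator_eq_bot_iff_le_centralizer.2
      ((Transfer.map_subtype_pResidual_le_iff.2 h).trans (centralizer_le hU))]
    exact bot_le
  rw [le_centralizer_iff] at h3
  rw [← card_map_mk'_eq_relIndex, Solv.IsMinNormal.card_eq_of_pow_sub_one hN hNp
    (le_trans ?_ h3) fun g => h3 ?_]
  · exact hp.out
  · rw [← Solv.map_commutator_of_surjective (QuotientGroup.mk'_surjective W)]
    exact map_mono hc
  · obtain ⟨g, rfl⟩ := QuotientGroup.mk'_surjective W g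
    rw [← map_pow]; exact mem_map_of_mem _ (he g)

theorem sChain_of_all_normal [P.Normal] (hP : IsPGroup p P) (hk : 1 ≤ k) (hlt : p ^ k < Nat.card P)
    (hall : ∀ R ≤ P, (Nat.card R = p ^ k ∨ (p ^ k = 2 ∧ Nat.card R = 4)) → R.Normal) :
    Solv.SChain P := by
  have : (_root_.commutator G ⊔ closure {y | ∃ g : G, y = g ^ (p - 1)}).Normal :=
    Normal.of_commutator_le G le_sup_left
  refine sChain_of_cent (K := _root_.commutator G ⊔ closure {y | ∃ g : G, y = g ^ (p - 1)}) hP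
    le_sup_left (fun g => mem_sup_right (Subgroup.subset_closure ⟨g, rfl⟩))
    fun x hx ho => (trivSec_top hx ho).cent_of_all hP hk hlt le_normalizer_of_normal
      (fun R h1 h2 => ?_) (mem_zpowers x)
  have := hall R h1 h2
  exact le_normalizer_of_normal

end Cfsg.Lib.Comp
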